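import Cfsg.Agent.H59.Bs.SpPlus
import Cfsg.Agent.H46.Bs.GL

/-!
# S5733, BS07: block counts, symplectic case (helper59)

`sp_minus`, `sp_plus`.
-/

set_option autoImplicit false

namespace Cfsg.Agent.H59.Bs

open Cfsg.Agent.H847.Bs Module

/-- **blocks of type plus, symplectic case** -/
theorem sp_plus {F V : Type*} [Field F] [Finite F] [AddCommGroup V] [Module F V] [FiniteDimensional F V] {Φ : Frm F V}
    (hΦ : IsSp Φ) {j : ℕ} (hj : 1 ≤ j) (hd : finrank F V = 2 * j) :
    ar j / (2 * j) * Nat.card Φ.Iso ≤ (Nat.card Φ.Bp : ℝ) := by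
  refine sp_plus_of hΦ hj hd ?_
  have h := Cfsg.Agent.H46.Bs.gl_irr_ns F (Fin j → F) (Module.finrank_fin_fun F) hj (RingHom.id F) (fun _ => rfl)
  simpa only [Polynomial.map_id] using h

end Cfsg.Agent.H59.Bs
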