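import Cfsg.Agent.H440.Bs.Trans
import Cfsg.Agent.H796.Bs.Comb
import Cfsg.Agent.H847.Bs.Stmts
import Cfsg.Agent.H181.Bs.Sp
import Cfsg.Agent.H59.Bs.Sp

/-!
# S5733, BS10: the count, symplectic case (helper59)

`s10 : S10`.
-/

set_option autoImplicit false

namespace Cfsg.Agent.H59.Bs

open Cfsg.Agent.H847.Bs Module Cfsg.Agent.H440.Bs

/-- the proportion of the large block elements in the symplectic group of dimension `2 * N` -/
noncomputable def pr (F : Type) [Field F] (K N m : ℕ) : ℝ :=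
  (Nat.card ↥((frmP F (Fin N → F)).SS K (2 * m)) : ℝ) / Nat.card (frmP F (Fin N → F)).Iso

section

variable {F V : Type} [Field F] [Finite F] [AddCommGroup V] [Module F V] [Module.Finite F V] {Φ : Frm F V}

theorem card_Iso_pos (Φ : Frm F V) : (0 : ℝ) < Nat.card Φ.Iso := by
  have : Finite (V ≃ₗ[F] V) := finite_lin
  exact_mod_cast Nat.card_pos

theorem card_SS_eq (hΦ : IsSp Φ) {N : ℕ} (hN : finrank F V = 2 * N) (K m : ℕ) :
    (Nat.card ↥(Φ.SS K (2 * m)) : ℝ) = pr F K N m * Nat.card Φ.Iso := by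
  obtain ⟨e, he1, he2⟩ := exists_equiv (Φ' := frmP F (Fin N → F)) hΦ isSp_frmP (by
    rw [hN, finrank_prod, Subspace.dual_finrank_eq, Module.finrank_fin_fun]
    omega)
  have h : IsoTo Φ (frmP F (Fin N → F)) e := ⟨he1, he2⟩
  rw [card_SS h, card_iso h, pr, div_mul_cancel₀]
  exact (card_Iso_pos _).ne'

theorem pr_nonneg (K N m : ℕ) : 0 ≤ pr F K N m := by
  unfold pr
  positivity

theorem finrank_std (N : ℕ) : finrank F ((Fin N → F) × Dual F (Fin N → F)) = 2 * N := by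
  rw [finrank_prod, Subspace.dual_finrank_eq, Module.finrank_fin_fun]
  omega

theorem pr_zero (K m : ℕ) : pr F K 0 m = 1 := by
  unfold pr
  rw [card_SS_zero (finrank_std 0), card_iso_zero (finrank_std 0)]
  norm_num

theorem card_mono {α : Type*} [Finite α] {s t : Set α} (h : s ⊆ t) : Nat.card s ≤ Nat.card t :=
  Nat.card_mono (Set.toFinite t) h

theorem pr_mono (K N m : ℕ) : pr F K N m ≤ pr F K N (m + 1) := by
  unfold pr
  have : Finite (((Fin N → F) × Dual F (Fin N → F)) ≃ₗ[F] ((Fin N → F) × Dual F (Fin N → F))) := finite_lin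
  gcongr ?_ / _
  exact_mod_cast card_mono (SS_mono (Φ := frmP F (Fin N → F)) (K := K) (show 2 * m ≤ 2 * (m + 1) by omega))

/-- the union of three disjoint sets -/
theorem card_three {α : Type*} [Finite α] {a b c s : Set α} (ha : a ⊆ s) (hb : b ⊆ s) (hc : c ⊆ s) (hab : Disjoint a b)
    (hac : Disjoint a c) (hbc : Disjoint b c) : Nat.card a + Nat.card b + Nat.card c ≤ Nat.card s := by
  simp only [Nat.card_coe_set_eq]
  rw [← Set.ncard_union_eq hab (Set.toFinite _) (Set.toFinite _),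
    ← Set.ncard_union_eq (Set.disjoint_union_left.2 ⟨hac, hbc⟩) (Set.toFinite _) (Set.toFinite _)]
  exact Set.ncard_le_ncard (Set.union_subset (Set.union_subset ha hb) hc) (Set.toFinite _)

/-- one term of the recursion -/
theorem term {v d u x y c a P : ℝ} (hd : 0 < d) (hu : 0 < u) (hP : 0 ≤ P) (hx : a * d ≤ x) (hy : y = P * u)
    (h : v * x * y ≤ d * u * c) (hv : 0 ≤ v) : a * P * v ≤ c := by
  have h1 : v * (a * d) * (P * u) ≤ v * x * y := by
    rw [hy]
    have : 0 ≤ P * u := mul_nonneg hP hu.le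
    gcongr
  have h2 : d * u * (a * P * v) ≤ d * u * c := by
    calc d * u * (a * P * v) = v * (a * d) * (P * u) := by ring
      _ ≤ _ := h1.trans h
  exact le_of_mul_le_mul_left h2 (mul_pos hd hu)

theorem rec_step (hΦ : IsSp Φ) {N m K : ℕ} (hN : finrank F V = 2 * N) (hK : K < m) (hm : m ≤ N) :
    pr F K N (m - 1) + ar m / m * pr F K (N - m) (m - 1) ≤ pr F K N m := by
  have hfin : Finite (V ≃ₗ[F] V) := finite_lin
  obtain ⟨D, U, hdec, hD⟩ := Cfsg.Agent.H181.Bs.exists_dec hΦ m (by omega)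
  have hsum := Submodule.finrank_add_eq_of_isCompl hdec.compl
  have hU : finrank F U = 2 * (N - m) := by omega
  have hΦD : IsSp (Φ.on D) := Cfsg.Agent.H181.Bs.isSp_on hΦ (Cfsg.Agent.H181.Bs.ndOn_left hΦ.nd hdec)
  have hΦU : IsSp (Φ.on U) := Cfsg.Agent.H181.Bs.isSp_on hΦ (Cfsg.Agent.H181.Bs.ndOn_right hΦ.nd hdec)
  have hsub : (Φ.on U).SS K (2 * (m - 1)) ⊆ (Φ.on U).SS K (2 * m - 1) := SS_mono (by omega)
  obtain ⟨h1, h2, h3⟩ := rec_minus hdec hΦ.nd hD (by omega : K < 2 * m) (X := (Φ.on D).Bm) subset_rfl hsub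
  obtain ⟨h4, h5, h6⟩ := rec_plus hdec hΦ.nd hD (by omega : 2 * K < 2 * m) (X := (Φ.on D).Bp) subset_rfl hsub
  have h7 := disjoint_minus_plus' (Φ := Φ) hdec.compl hdec.compl hD hD (X := (Φ.on D).Bm) (X' := (Φ.on D).Bp)
    (Y := (Φ.on U).SS K (2 * (m - 1))) (Y' := (Φ.on U).SS K (2 * (m - 1))) subset_rfl subset_rfl hsub
  have hS : Φ.SS K (2 * (m - 1)) ⊆ Φ.SS K (2 * m - 1) := SS_mono (by omega)
  have hS' : Φ.SS K (2 * (m - 1)) ⊆ Φ.SS K (2 * m) := SS_mono (by omega)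
  have h8 := card_three hS' h2 h5 (h3.symm.mono_left hS) (h6.symm.mono_left hS) h7
  have b1 := sp_minus hΦD (show 1 ≤ m by omega) hD
  have b2 := sp_plus hΦD (show 1 ≤ m by omega) hD
  have b3 := card_SS_eq hΦU hU K (m - 1)
  have b4 := card_SS_eq hΦ hN K (m - 1)
  have b5 := card_SS_eq hΦ hN K m
  have hpos := card_Iso_pos Φ
  have h1' := (Nat.cast_le (α := ℝ)).2 h1
  have h4' := (Nat.cast_le (α := ℝ)).2 h4
  rw [Nat.cast_mul, Nat.cast_mul, Nat.cast_mul, Nat.cast_mul] at h1' h4'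
  have c1 := term (card_Iso_pos (Φ.on D)) (card_Iso_pos (Φ.on U)) (pr_nonneg (F := F) K (N - m) (m - 1)) b1 b3
    h1' hpos.le
  have c2 := term (card_Iso_pos (Φ.on D)) (card_Iso_pos (Φ.on U)) (pr_nonneg (F := F) K (N - m) (m - 1)) b2 b3
    h4' hpos.le
  have h9 : (Nat.card ↥(Φ.SS K (2 * (m - 1))) : ℝ) +
      Nat.card ↥(cset Φ.Iso hdec.compl (Φ.on D).Bm ((Φ.on U).SS K (2 * (m - 1)))) +
      Nat.card ↥(cset Φ.Iso hdec.compl (Φ.on D).Bp ((Φ.on U).SS K (2 * (m - 1)))) ≤ Nat.card ↥(Φ.SS K (2 * m)) := by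
    exact_mod_cast h8
  rw [b4, b5] at h9
  refine le_of_mul_le_mul_right ?_ hpos
  have hm0 : (m : ℝ) ≠ 0 := by
    have : m ≠ 0 := by omega
    exact_mod_cast this
  calc (pr F K N (m - 1) + ar m / m * pr F K (N - m) (m - 1)) * Nat.card Φ.Iso
      = pr F K N (m - 1) * Nat.card Φ.Iso + ar m / (2 * m) * pr F K (N - m) (m - 1) * Nat.card Φ.Iso +
        ar m / (2 * m) * pr F K (N - m) (m - 1) * Nat.card Φ.Iso := by
        field_simp
        ring
    _ ≤ _ := by linarith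

end

/-- **BS10** -/
theorem s10 : S10 := by
  obtain ⟨K₀, h⟩ := Cfsg.Agent.H796.Bs.comb
  refine ⟨1 / 16, by norm_num, K₀, ?_⟩
  intro F V _ _ _ _ _ Φ n K hΦ hK hn hKn
  have h1 := h K hK (pr F K) (fun N m => pr_nonneg K N m) (fun m => (pr_zero K m).ge) (fun N m => pr_mono K N m)
    (fun N m hKm hm => rec_step (Φ := frmP F (Fin N → F)) isSp_frmP (finrank_std N) hKm hm) n hKn
  rw [card_SS_eq hΦ hn]
  have h2 := card_Iso_pos Φ
  gcongr
  calc (1 / 16 : ℝ) / (K + 1) = 1 / (16 * (K + 1)) := by rw [div_div]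
    _ ≤ _ := h1

end Cfsg.Agent.H59.Bs
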