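import Cfsg.Agent.H59.Bs.ODec
import Cfsg.Agent.H440.Bs.Trans
import Cfsg.Agent.H796.Bs.Comb
import Cfsg.Agent.H826.Bs.Count
import Cfsg.Agent.H847.Bs.Stmts

/-!
# S5733, BS12: the count, orthogonal case (helper59)

`s12_of` : S12 from the block counts (BS08).
-/

set_option autoImplicit false
set_option linter.unusedSectionVars false

namespace Cfsg.Agent.H59.Bs

open QuadraticMap Cfsg.Agent.LieClassical.OrthCore Cfsg.Agent.LieClassical.OrthTrans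
  Cfsg.Agent.LieClassical.OrthFinite Cfsg.Agent.H847.Bs Module Cfsg.Agent.H440.Bs

/-- BS08 (a) -/
def OMinus : Prop :=
  ∀ (F V : Type) [Field F] [Finite F] [AddCommGroup V] [Module F V] [FiniteDimensional F V] (Q : QuadraticForm F V),
    Nondeg Q → ∀ j : ℕ, 1 ≤ j → finrank F V = 2 * j → ¬ PlusT Q →
    ar j / (2 * j) * Nat.card (frmQ Q).Iso ≤ (Nat.card {x // x ∈ (frmQ Q).Bm ∧ x ∈ nQ Q} : ℝ)

/-- BS08 (b) -/
def OPlus : Prop :=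
  ∀ (F V : Type) [Field F] [Finite F] [AddCommGroup V] [Module F V] [FiniteDimensional F V] (Q : QuadraticForm F V),
    Nondeg Q → ∀ j : ℕ, 1 ≤ j → finrank F V = 2 * j → PlusT Q →
    ar j / (2 * j) * Nat.card (frmQ Q).Iso ≤ (Nat.card {x // x ∈ (frmQ Q).Bp ∧ x ∈ nQ Q} : ℝ)

section

variable {F V : Type} [Field F] [Finite F] [AddCommGroup V] [Module F V] [FiniteDimensional F V]
  {Q : QuadraticForm F V}

/-- the large block elements in `nQ` -/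
def SQ (Q : QuadraticForm F V) (K d : ℕ) : Set (V ≃ₗ[F] V) := {x | x ∈ (frmQ Q).SS K d ∧ x ∈ nQ Q}

theorem SQ_mono {K d d' : ℕ} (h : d ≤ d') : SQ Q K d ⊆ SQ Q K d' := fun _ hx => ⟨SS_mono h hx.1, hx.2⟩

/-- the proportion -/
noncomputable def fQ (Q : QuadraticForm F V) (K m : ℕ) : ℝ := (Nat.card ↥(SQ Q K (2 * m)) : ℝ) / Nat.card (frmQ Q).Iso

theorem IsoPos : (0 : ℝ) < Nat.card (frmQ Q).Iso := by
  have : Finite (V ≃ₗ[F] V) := finite_lin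
  exact_mod_cast Nat.card_pos

theorem card_le_of_sub {s t : Set (V ≃ₗ[F] V)} (h : s ⊆ t) : Nat.card s ≤ Nat.card t := by
  have : Finite (V ≃ₗ[F] V) := finite_lin
  exact Nat.card_mono (Set.toFinite t) h

theorem fQ_nonneg (K m : ℕ) : 0 ≤ fQ Q K m := by unfold fQ; positivity

theorem fQ_le_one (K m : ℕ) : fQ Q K m ≤ 1 := by
  unfold fQ
  refine div_le_one_of_le₀ ?_ (Nat.cast_nonneg _)
  exact_mod_cast card_le_of_sub (fun x (hx : x ∈ SQ Q K (2 * m)) => hx.1.1)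

theorem fQ_mono (K m : ℕ) : fQ Q K m ≤ fQ Q K (m + 1) := by
  unfold fQ
  refine div_le_div_of_nonneg_right ?_ (Nat.cast_nonneg _)
  exact_mod_cast card_le_of_sub (SQ_mono (show 2 * m ≤ 2 * (m + 1) by omega))

theorem fQ_zero (K m : ℕ) (h : finrank F V = 0) : 1 ≤ fQ Q K m := by
  have : Finite (V ≃ₗ[F] V) := finite_lin
  unfold fQ
  rw [card_iso_zero h, Nat.cast_one, div_one]
  have : Nonempty ↥(SQ Q K (2 * m)) := ⟨⟨1, SS_of_finrank_zero h K _ 1, one_mem _⟩⟩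
  exact_mod_cast Nat.card_pos (α := ↥(SQ Q K (2 * m)))

/-- the union of three disjoint sets -/
theorem card_three' {a b c s : Set (V ≃ₗ[F] V)} (ha : a ⊆ s) (hb : b ⊆ s) (hc : c ⊆ s) (hab : Disjoint a b)
    (hac : Disjoint a c) (hbc : Disjoint b c) : Nat.card a + Nat.card b + Nat.card c ≤ Nat.card s := by
  have : Finite (V ≃ₗ[F] V) := finite_lin
  simp only [Nat.card_coe_set_eq]
  rw [← Set.ncard_union_eq hab (Set.toFinite _) (Set.toFinite _),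
    ← Set.ncard_union_eq (Set.disjoint_union_left.2 ⟨hac, hbc⟩) (Set.toFinite _) (Set.toFinite _)]
  exact Set.ncard_le_ncard (Set.union_subset (Set.union_subset ha hb) hc) (Set.toFinite _)

theorem cset_nQ {D U : Submodule F V} (h : (frmQ Q).Dec D U) {X : Set (D ≃ₗ[F] D)} {Y : Set (U ≃ₗ[F] U)}
    (hX : ∀ x ∈ X, x ∈ nQ (Q.comp D.subtype)) (hY : ∀ y ∈ Y, y ∈ nQ (Q.comp U.subtype)) :
    ∀ z ∈ cset (frmQ Q).Iso h.compl X Y, z ∈ nQ Q := by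
  rintro z ⟨g, hg, x, hx, y, hy, rfl⟩
  exact conj_mem_nQ (mem_Iso.1 hg) (glue_mem_nQ h (hX x hx) (hY y hy))

/-- **the recursion** -/
theorem rec_o (HM : OMinus) (HP : OPlus) (hQ : Nondeg Q) {N m K : ℕ} (hN : finrank F V = 2 * N) (hK : K < m)
    (hm : m < N) : ∃ U₁ U₂ : Submodule F V, Nondeg (Q.comp U₁.subtype) ∧ Nondeg (Q.comp U₂.subtype) ∧
      finrank F U₁ = 2 * (N - m) ∧ finrank F U₂ = 2 * (N - m) ∧
      (PlusT (Q.comp U₁.subtype) ↔ PlusT Q) ∧ (PlusT (Q.comp U₂.subtype) ↔ ¬ PlusT Q) ∧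
      fQ Q K (m - 1) + ar m / (2 * m) * (fQ (Q.comp U₁.subtype) K (m - 1) + fQ (Q.comp U₂.subtype) K (m - 1)) ≤
        fQ Q K m := by
  obtain ⟨D₁, U₁, hd₁, hD₁, hp₁, ht₁⟩ := exists_dec_plus hQ hN hm
  obtain ⟨D₂, U₂, hd₂, hD₂, hp₂, ht₂⟩ := exists_dec_minus hQ hN (by omega) hm
  have hs₁ := Submodule.finrank_add_eq_of_isCompl hd₁.compl
  have hs₂ := Submodule.finrank_add_eq_of_isCompl hd₂.compl
  have hN' : (frmQ Q).Nd := frmQ_nd.2 hQ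
  have hnD₁ : Nondeg (Q.comp D₁.subtype) := frmQ_nd.1 (NdOn.nd (Dec.ndOn hd₁ hN'))
  have hnD₂ : Nondeg (Q.comp D₂.subtype) := frmQ_nd.1 (NdOn.nd (Dec.ndOn hd₂ hN'))
  have hnU₁ : Nondeg (Q.comp U₁.subtype) := frmQ_nd.1 (NdOn.nd (Dec.ndOn' hd₁ hN'))
  have hnU₂ : Nondeg (Q.comp U₂.subtype) := frmQ_nd.1 (NdOn.nd (Dec.ndOn' hd₂ hN'))
  refine ⟨U₁, U₂, hnU₁, hnU₂, by omega, by omega, ht₁, ht₂, ?_⟩
  set X₁ : Set (D₁ ≃ₗ[F] D₁) := {x | x ∈ (frmQ (Q.comp D₁.subtype)).Bp ∧ x ∈ nQ (Q.comp D₁.subtype)} with hX₁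
  set X₂ : Set (D₂ ≃ₗ[F] D₂) := {x | x ∈ (frmQ (Q.comp D₂.subtype)).Bm ∧ x ∈ nQ (Q.comp D₂.subtype)} with hX₂
  set Y₁ : Set (U₁ ≃ₗ[F] U₁) := SQ (Q.comp U₁.subtype) K (2 * (m - 1)) with hY₁
  set Y₂ : Set (U₂ ≃ₗ[F] U₂) := SQ (Q.comp U₂.subtype) K (2 * (m - 1)) with hY₂
  have hX₁' : X₁ ⊆ ((frmQ Q).on D₁).Bp := fun x hx => hx.1
  have hX₂' : X₂ ⊆ ((frmQ Q).on D₂).Bm := fun x hx => hx.1
  have hY₁' : Y₁ ⊆ ((frmQ Q).on U₁).SS K (2 * m - 1) := fun x hx => SS_mono (by omega) hx.1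
  have hY₂' : Y₂ ⊆ ((frmQ Q).on U₂).SS K (2 * m - 1) := fun x hx => SS_mono (by omega) hx.1
  obtain ⟨a1, a2, a3⟩ := rec_plus hd₁ hN' hD₁ (by omega : 2 * K < 2 * m) hX₁' hY₁'
  obtain ⟨b1, b2, b3⟩ := rec_minus hd₂ hN' hD₂ (by omega : K < 2 * m) hX₂' hY₂'
  have hdis := disjoint_minus_plus' (Φ := frmQ Q) hd₂.compl hd₁.compl hD₂ hD₁ (Y := Y₂) hX₂' hX₁' hY₁'
  have c1 := cset_nQ hd₁ (X := X₁) (Y := Y₁) (fun x hx => hx.2) (fun x hx => hx.2)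
  have c2 := cset_nQ hd₂ (X := X₂) (Y := Y₂) (fun x hx => hx.2) (fun x hx => hx.2)
  set C₁ := cset (frmQ Q).Iso hd₁.compl X₁ Y₁ with hC₁
  set C₂ := cset (frmQ Q).Iso hd₂.compl X₂ Y₂ with hC₂
  have hS : SQ Q K (2 * (m - 1)) ⊆ (frmQ Q).SS K (2 * m - 1) := fun x hx => SS_mono (by omega) hx.1
  have h8 : Nat.card ↥(SQ Q K (2 * (m - 1))) + Nat.card ↥C₁ + Nat.card ↥C₂ ≤ Nat.card ↥(SQ Q K (2 * m)) :=
    card_three' (SQ_mono (by omega)) (fun z hz => ⟨a2 hz, c1 z hz⟩) (fun z hz => ⟨b2 hz, c2 z hz⟩)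
      (a3.symm.mono_left hS) (b3.symm.mono_left hS) hdis.symm
  have hm0 : (0 : ℝ) < m := by exact_mod_cast (by omega : 0 < m)
  have e1 := HP F D₁ (Q.comp D₁.subtype) hnD₁ m (by omega) hD₁ hp₁
  have e2 := HM F D₂ (Q.comp D₂.subtype) hnD₂ m (by omega) hD₂ hp₂
  have n1 := Cfsg.Agent.H826.Bs.num_step (Cfsg.Agent.H826.Bs.card_Iso_pos (frmQ Q))
    (Cfsg.Agent.H826.Bs.card_Iso_pos ((frmQ Q).on D₁)) (Cfsg.Agent.H826.Bs.card_Iso_pos ((frmQ Q).on U₁)) a1 e1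
  have n2 := Cfsg.Agent.H826.Bs.num_step (Cfsg.Agent.H826.Bs.card_Iso_pos (frmQ Q))
    (Cfsg.Agent.H826.Bs.card_Iso_pos ((frmQ Q).on D₂)) (Cfsg.Agent.H826.Bs.card_Iso_pos ((frmQ Q).on U₂)) b1 e2
  have h9 : (Nat.card ↥(SQ Q K (2 * (m - 1))) : ℝ) + Nat.card ↥C₁ + Nat.card ↥C₂ ≤ Nat.card ↥(SQ Q K (2 * m)) := by
    exact_mod_cast h8
  have hpos := IsoPos (Q := Q)
  have n1' : ar m / (2 * m) * fQ (Q.comp U₁.subtype) K (m - 1) ≤ (Nat.card ↥C₁ : ℝ) / Nat.card (frmQ Q).Iso := n1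
  have n2' : ar m / (2 * m) * fQ (Q.comp U₂.subtype) K (m - 1) ≤ (Nat.card ↥C₂ : ℝ) / Nat.card (frmQ Q).Iso := n2
  calc _ = (Nat.card ↥(SQ Q K (2 * (m - 1))) : ℝ) / Nat.card (frmQ Q).Iso +
        ar m / (2 * m) * fQ (Q.comp U₁.subtype) K (m - 1) + ar m / (2 * m) * fQ (Q.comp U₂.subtype) K (m - 1) := by
        rw [fQ]; ring
    _ ≤ (Nat.card ↥(SQ Q K (2 * (m - 1))) : ℝ) / Nat.card (frmQ Q).Iso + (Nat.card ↥C₁ : ℝ) / Nat.card (frmQ Q).Iso +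
        (Nat.card ↥C₂ : ℝ) / Nat.card (frmQ Q).Iso := by gcongr
    _ = ((Nat.card ↥(SQ Q K (2 * (m - 1))) : ℝ) + Nat.card ↥C₁ + Nat.card ↥C₂) / Nat.card (frmQ Q).Iso := by ring
    _ ≤ _ := by
      rw [fQ]
      gcongr

theorem Bm_sub {N K : ℕ} (hQ : Nondeg Q) (hN : finrank F V = 2 * N) (hK : K < N) {x : V ≃ₗ[F] V} (hx : x ∈ (frmQ Q).Bm) :
    x ∈ (frmQ Q).SS K (2 * N) ∧ x ∉ (frmQ Q).SS K (2 * (N - 1)) := by
  refine ⟨⟨hx.1, fun Y hY hY0 => ?_, fun X hX => ?_⟩, fun h => ?_⟩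
  · have h1 : Y = ⊤ := (hx.2.min Y le_top hY).resolve_left hY0
    rw [h1, finrank_top]; omega
  · rw [irr_Bm hx hX, finrank_top]
    exact ⟨hN.le, fun _ v _ hv => hQ v fun w => hv w trivial⟩
  · have h1 := (h.2.2 ⊤ hx.2).1
    rw [finrank_top] at h1
    omega

theorem Bp_sub {N K : ℕ} (hN : finrank F V = 2 * N) (hK : K < N) {x : V ≃ₗ[F] V} (hx : x ∈ (frmQ Q).Bp) :
    x ∈ (frmQ Q).SS K (2 * N) ∧ x ∉ (frmQ Q).SS K (2 * (N - 1)) := by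
  refine ⟨⟨hx.1, fun Y hY hY0 => ?_, fun X hX => ?_⟩, fun h => ?_⟩
  · obtain ⟨X, hXY, hX⟩ := Cfsg.Agent.H440.Bs.exists_irr hY hY0
    have h1 := finrank_irr_Bp hx hX
    have h2 := Submodule.finrank_mono hXY
    omega
  · have h1 := finrank_irr_Bp hx hX
    exact ⟨by omega, fun h2 => by omega⟩
  · obtain ⟨-, A, A', hc, hTI, -, hA, -, hdim, -⟩ := hx
    have h1 := Submodule.finrank_add_eq_of_isCompl hc
    have h2 := (h.2.2 A hA).2 (by omega)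
    apply hA.ne_bot
    rw [eq_bot_iff]
    intro v hv
    exact h2 v hv fun w hw => hTI.1 v hv w hw

/-- **the last step** -/
theorem rec_o2 (HM : OMinus) (HP : OPlus) (hQ : Nondeg Q) {N K : ℕ} (hN : finrank F V = 2 * N) (hK : K < N) :
    fQ Q K (N - 1) + ar N / (2 * N) ≤ fQ Q K N := by
  have hfin : Finite (V ≃ₗ[F] V) := finite_lin
  have hpos := IsoPos (Q := Q)
  have key : ∀ X : Set (V ≃ₗ[F] V), (∀ x ∈ X, (x ∈ (frmQ Q).SS K (2 * N) ∧ x ∉ (frmQ Q).SS K (2 * (N - 1))) ∧ x ∈ nQ Q) →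
      ar N / (2 * N) * Nat.card (frmQ Q).Iso ≤ (Nat.card ↥X : ℝ) → fQ Q K (N - 1) + ar N / (2 * N) ≤ fQ Q K N := by
    intro X hX hc
    have h1 : Nat.card ↥(SQ Q K (2 * (N - 1))) + Nat.card ↥X ≤ Nat.card ↥(SQ Q K (2 * N)) := by
      simp only [Nat.card_coe_set_eq]
      rw [← Set.ncard_union_eq _ (Set.toFinite _) (Set.toFinite _)]
      · refine Set.ncard_le_ncard (Set.union_subset (SQ_mono (by omega)) fun x hx => ⟨(hX x hx).1.1, (hX x hx).2⟩)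
          (Set.toFinite _)
      · rw [Set.disjoint_left]
        exact fun x hx hx' => (hX x hx').1.2 hx.1
    have h2 : (Nat.card ↥(SQ Q K (2 * (N - 1))) : ℝ) + Nat.card ↥X ≤ Nat.card ↥(SQ Q K (2 * N)) := by exact_mod_cast h1
    rw [fQ, fQ, div_add' _ _ _ hpos.ne']
    gcongr
    linarith
  by_cases hP : PlusT Q
  · exact key {x | x ∈ (frmQ Q).Bp ∧ x ∈ nQ Q} (fun x hx => ⟨Bp_sub hN hK hx.1, hx.2⟩)
      (HP F V Q hQ N (by omega) hN hP)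
  · exact key {x | x ∈ (frmQ Q).Bm ∧ x ∈ nQ Q} (fun x hx => ⟨Bm_sub hQ hN hK hx.1, hx.2⟩)
      (HM F V Q hQ N (by omega) hN hP)

end

/-- quadratic spaces of even dimension -/
structure OSp (F : Type) [Field F] where
  V : Type
  [g : AddCommGroup V]
  [m : Module F V]
  [fin : Module.Finite F V]
  Q : QuadraticForm F V
  nd : Nondeg Q
  n : ℕ
  hn : finrank F V = 2 * n

attribute [instance] OSp.g OSp.m OSp.fin

open Classical in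
/-- **BS12**, from the block counts -/
theorem s12_of (HM : OMinus) (HP : OPlus) : S12 := by
  obtain ⟨K₀, h⟩ := Cfsg.Agent.H796.Bs.comb_two
  refine ⟨1 / 32, by norm_num, K₀, ?_⟩
  intro F V _ _ _ _ _ Q n K hQ hK hn hKn
  have hc : Cfsg.Agent.H826.Bs.CombAt2 K := fun p h1 _ h2 h3 h4 => h K hK p h1 h2 h3 h4
  have key := Cfsg.Agent.H826.Bs.class_comb2 (S := OSp F) hc (fun s => s.n) (fun s => decide (PlusT s.Q))
    (fun s m => fQ s.Q K m) (fun s m => fQ_nonneg K m) (fun s m => fQ_le_one K m)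
    (fun s m hs => fQ_zero K m (by rw [s.hn, hs])) (fun s m => fQ_mono K m)
    (fun s m hm hms => by
      obtain ⟨U₁, U₂, h1, h2, h3, h4, h5, h6, h7⟩ := rec_o HM HP s.nd s.hn hm hms
      refine ⟨⟨U₁, s.Q.comp U₁.subtype, h1, s.n - m, h3⟩, ⟨U₂, s.Q.comp U₂.subtype, h2, s.n - m, h4⟩, rfl, ?_, rfl, ?_, h7⟩
      · exact decide_eq_decide.2 h5
      · have h8 : decide (PlusT (s.Q.comp U₂.subtype)) = decide (¬ PlusT s.Q) := decide_eq_decide.2 h6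
        show decide (PlusT (s.Q.comp U₂.subtype)) = _
        rw [h8, decide_not])
    (fun s hs => rec_o2 HM HP s.nd s.hn hs) ⟨V, Q, frmQ_nd.1 hQ, n, hn⟩ hKn
  have hpos := IsoPos (Q := Q)
  have h2 : 1 / (32 * (K + 1) : ℝ) ≤ fQ Q K n := key
  rw [fQ, le_div_iff₀ hpos] at h2
  calc (1 / 32 : ℝ) / (K + 1) * Nat.card (frmQ Q).Iso = 1 / (32 * (K + 1)) * Nat.card (frmQ Q).Iso := by
        rw [div_div]
    _ ≤ _ := h2

end Cfsg.Agent.H59.Bs
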