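import Cfsg.Agent.H59.Bs.SpMinus

/-!
# S5733, BS07: symplectic blocks of type plus (helper59)
-/

set_option autoImplicit false
set_option linter.unusedSectionVars false

namespace Cfsg.Agent.H59.Bs

open Cfsg.Agent.H847.Bs Module

section Gen

variable {F V : Type*} [Field F] [AddCommGroup V] [Module F V]

/-- the irreducible submodules of the sum of two non isomorphic ones -/
theorem irr_eq [FiniteDimensional F V] {x : V ≃ₗ[F] V} {A A' X : Submodule F V} (hc : IsCompl A A') (hA : Irr x A)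
    (hA' : Irr x A') (hX : Irr x X)
    (hn : ¬ ∃ φ : A ≃ₗ[F] A', ∀ a : A, ∀ ha : x a ∈ A, ((φ ⟨x a, ha⟩ : A') : V) = x (φ a)) : X = A ∨ X = A' := by
  have inf_inv : ∀ {Y Z : Submodule F V}, Inv x Y → Inv x Z → Inv x (Y ⊓ Z) := fun hY hZ v hv =>
    ⟨hY v hv.1, hZ v hv.2⟩
  rcases hX.min (X ⊓ A') inf_le_left (inf_inv hX.inv hA'.inv) with h1 | h1
  · rcases hX.min (X ⊓ A) inf_le_left (inf_inv hX.inv hA.inv) with h2 | h2
    · exfalso
      apply hn
      let π := A.projectionOnto A' hc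
      let π' := A'.projectionOnto A hc.symm
      have hπ : ∀ v, ((π v : A) : V) + (π' v : A') = v := by
        intro v
        obtain ⟨a, ha, b, hb, rfl⟩ := Submodule.mem_sup.1 (show v ∈ A ⊔ A' by rw [hc.sup_eq_top]; exact Submodule.mem_top)
        have h1 : π a = ⟨a, ha⟩ := Submodule.projectionOnto_apply_left hc ⟨a, ha⟩
        have h2 : π b = 0 := Submodule.projectionOnto_apply_right hc ⟨b, hb⟩
        have h3 : π' b = ⟨b, hb⟩ := Submodule.projectionOnto_apply_left hc.symm ⟨b, hb⟩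
        have h4 : π' a = 0 := Submodule.projectionOnto_apply_right hc.symm ⟨a, ha⟩
        rw [map_add, map_add, h1, h2, h3, h4, add_zero, zero_add]
      have huniq : ∀ (a : A) (b : A'), π (a + b) = a ∧ π' (a + b) = b := by
        intro a b
        constructor
        · rw [map_add]
          simp [π]
        · rw [map_add]
          simp [π']
      have heq : ∀ v, (π (x v) : V) = x (π v) ∧ (π' (x v) : V) = x (π' v) := by
        intro v
        have h3 : x v = ((⟨x (π v), hA.inv _ (π v).2⟩ : A) : V) + ((⟨x (π' v), hA'.inv _ (π' v).2⟩ : A') : V) := by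
          show x v = x (π v) + x (π' v)
          rw [← map_add, hπ]
        obtain ⟨h4, h5⟩ := huniq ⟨x (π v), hA.inv _ (π v).2⟩ ⟨x (π' v), hA'.inv _ (π' v).2⟩
        rw [← h3] at h4 h5
        exact ⟨congrArg Subtype.val h4, congrArg Subtype.val h5⟩
      let ρ : X →ₗ[F] A := π.comp X.subtype
      let ρ' : X →ₗ[F] A' := π'.comp X.subtype
      have hρ : Function.Injective ρ := by
        rw [← LinearMap.ker_eq_bot, LinearMap.ker_eq_bot']
        intro v hv
        have h3 : (v : V) ∈ X ⊓ A' := by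
          refine ⟨v.2, ?_⟩
          have h4 := hπ v
          have h5 : π (v : V) = 0 := hv
          rw [h5, Submodule.coe_zero, zero_add] at h4
          rw [← h4]; exact (π' (v : V)).2
        rw [h1] at h3
        exact Subtype.ext ((Submodule.mem_bot F).1 h3)
      have hρ' : Function.Injective ρ' := by
        rw [← LinearMap.ker_eq_bot, LinearMap.ker_eq_bot']
        intro v hv
        have h3 : (v : V) ∈ X ⊓ A := by
          refine ⟨v.2, ?_⟩
          have h4 := hπ v
          have h5 : π' (v : V) = 0 := hv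
          rw [h5, Submodule.coe_zero, add_zero] at h4
          rw [← h4]; exact (π (v : V)).2
        rw [h2] at h3
        exact Subtype.ext ((Submodule.mem_bot F).1 h3)
      have surj : ∀ {B : Submodule F V} (hB : Irr x B) (ψ : X →ₗ[F] B), Function.Injective ψ →
          (∀ v : X, ((ψ ⟨x v, hX.inv _ v.2⟩ : B) : V) = x (ψ v)) → Function.Surjective ψ := by
        intro B hB ψ hψ hψx
        have h3 : (LinearMap.range ψ).map B.subtype = B := by
          refine (hB.min _ (Submodule.map_subtype_le _ _) ?_).resolve_left ?_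
          · rintro _ ⟨_, ⟨v, rfl⟩, rfl⟩
            exact ⟨ψ ⟨x v, hX.inv _ v.2⟩, ⟨_, rfl⟩, hψx v⟩
          · intro h4
            obtain ⟨v, hv, hv0⟩ := Submodule.exists_mem_ne_zero_of_ne_bot hX.ne_bot
            have h5 : ((ψ ⟨v, hv⟩ : B) : V) ∈ (LinearMap.range ψ).map B.subtype := ⟨_, ⟨_, rfl⟩, rfl⟩
            rw [h4, Submodule.mem_bot] at h5
            have h6 : ψ ⟨v, hv⟩ = ψ 0 := by
              rw [map_zero]; exact Subtype.ext h5
            exact hv0 (congrArg Subtype.val (hψ h6))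
        intro b
        have h4 : (b : V) ∈ (LinearMap.range ψ).map B.subtype := by rw [h3]; exact b.2
        obtain ⟨_, ⟨v, rfl⟩, hv⟩ := h4
        exact ⟨v, Subtype.ext hv⟩
      have e1 : ∀ v : X, ((ρ ⟨x v, hX.inv _ v.2⟩ : A) : V) = x (ρ v) := fun v => (heq v).1
      have e2 : ∀ v : X, ((ρ' ⟨x v, hX.inv _ v.2⟩ : A') : V) = x (ρ' v) := fun v => (heq v).2
      let E := LinearEquiv.ofBijective ρ ⟨hρ, surj hA ρ hρ e1⟩
      let E' := LinearEquiv.ofBijective ρ' ⟨hρ', surj hA' ρ' hρ' e2⟩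
      refine ⟨E.symm ≪≫ₗ E', fun a ha => ?_⟩
      obtain ⟨v, rfl⟩ := E.surjective a
      have h3 : (⟨x (E v : A), ha⟩ : A) = E ⟨x v, hX.inv _ v.2⟩ := Subtype.ext (e1 v).symm
      rw [h3]
      simp only [LinearEquiv.trans_apply, LinearEquiv.symm_apply_apply]
      exact e2 v
    · left
      have h3 : X ≤ A := by rw [← h2]; exact inf_le_right
      exact (hA.min X h3 hX.inv).resolve_left hX.ne_bot
  · right
    have h3 : X ≤ A' := by rw [← h1]; exact inf_le_right
    exact (hA'.min X h3 hX.inv).resolve_left hX.ne_bot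

theorem charpoly_dualMap [FiniteDimensional F V] (f : V →ₗ[F] V) :
    LinearMap.charpoly (f.dualMap) = LinearMap.charpoly f := by
  classical
  let b := Module.finBasis F V
  rw [← LinearMap.charpoly_toMatrix f b, ← LinearMap.charpoly_toMatrix f.dualMap b.dualBasis]
  have h := LinearMap.toMatrix_transpose (B₁ := b) (B₂ := b) f
  have h2 : (LinearMap.toMatrix b.dualBasis b.dualBasis) f.dualMap = ((LinearMap.toMatrix b b) f).transpose := h
  rw [h2, Matrix.charpoly_transpose]

end Gen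

section Plus

variable {F W : Type*} [Field F] [AddCommGroup W] [Module F W]

/-- the symplectic form on `W × W*` -/
noncomputable def frmP (F W : Type*) [Field F] [AddCommGroup W] [Module F W] : Frm F (W × Dual F W) where
  B x y := y.2 x.1 - x.2 y.1
  q _ := 0
  s a := a
  add_left x y z := by simp; ring
  add_right x y z := by simp; ring
  smul_left a x y := by simp; ring
  smul_right a x y := by simp; ring
  refl x y h := by
    have h1 : x.2 y.1 - y.2 x.1 = -(y.2 x.1 - x.2 y.1) := by ring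
    show x.2 y.1 - y.2 x.1 = 0
    rw [h1, h, neg_zero]
  q_add _ _ _ := (add_zero _).symm

theorem frmP_B (x y : W × Dual F W) : (frmP F W).B x y = y.2 x.1 - x.2 y.1 := rfl

theorem isSp_frmP : IsSp (frmP F W) where
  nd x hx := by
    have h1 : x.1 = 0 := by
      rw [← Module.forall_dual_apply_eq_zero_iff F]
      intro f
      have := hx (0, f)
      rw [frmP_B] at this
      simpa using this
    have h2 : x.2 = 0 := by
      ext w
      have := hx (w, 0)
      rw [frmP_B] at this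
      simpa using this
    exact Prod.ext h1 h2
  s _ := rfl
  q _ := rfl
  alt x := by rw [frmP_B]; exact sub_self _

/-- the isometry `(a, a⁻ᵀ)` -/
noncomputable def xa (a : W ≃ₗ[F] W) : (W × Dual F W) ≃ₗ[F] (W × Dual F W) := a.prodCongr a.symm.dualMap

theorem xa_apply (a : W ≃ₗ[F] W) (v : W × Dual F W) : xa a v = (a v.1, a.symm.dualMap v.2) := rfl

theorem xa_injective : Function.Injective (xa (F := F) (W := W)) := by
  intro a b h
  ext w
  exact congrArg (fun g : (W × Dual F W) ≃ₗ[F] (W × Dual F W) => (g (w, 0)).1) h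

theorem xa_mem (a : W ≃ₗ[F] W) : xa a ∈ (frmP F W).Iso := by
  refine ⟨fun x y => ?_, fun _ => rfl⟩
  rw [frmP_B, frmP_B, xa_apply, xa_apply, LinearEquiv.dualMap_apply, LinearEquiv.dualMap_apply,
    LinearEquiv.symm_apply_apply, LinearEquiv.symm_apply_apply]

/-- the first summand -/
def A1 (F W : Type*) [Field F] [AddCommGroup W] [Module F W] : Submodule F (W × Dual F W) := Submodule.prod ⊤ ⊥
/-- the second summand -/
def A2 (F W : Type*) [Field F] [AddCommGroup W] [Module F W] : Submodule F (W × Dual F W) := Submodule.prod ⊥ ⊤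

theorem mem_A1 {v : W × Dual F W} : v ∈ A1 F W ↔ v.2 = 0 := by simp [A1, Submodule.mem_prod]
theorem mem_A2 {v : W × Dual F W} : v ∈ A2 F W ↔ v.1 = 0 := by simp [A2, Submodule.mem_prod]

theorem compl_A : IsCompl (A1 F W) (A2 F W) := by
  refine ⟨?_, ?_⟩
  · rw [Submodule.disjoint_def]
    intro v h1 h2
    exact Prod.ext (mem_A2.1 h2) (mem_A1.1 h1)
  · rw [codisjoint_iff, eq_top_iff]
    intro v _
    have : v = (v.1, 0) + (0, v.2) := by simp
    rw [this]
    exact Submodule.add_mem_sup (mem_A1.2 rfl) (mem_A2.2 rfl)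

theorem TI_A1 : (frmP F W).TI (A1 F W) := by
  refine ⟨fun x hx y hy => ?_, fun _ _ => rfl⟩
  rw [frmP_B, mem_A1.1 hx, mem_A1.1 hy]
  simp

theorem TI_A2 : (frmP F W).TI (A2 F W) := by
  refine ⟨fun x hx y hy => ?_, fun _ _ => rfl⟩
  rw [frmP_B, mem_A2.1 hx, mem_A2.1 hy]
  simp

/-- `W ≃ A1` -/
def i1 (F W : Type*) [Field F] [AddCommGroup W] [Module F W] : W ≃ₗ[F] A1 F W where
  toFun w := ⟨(w, 0), mem_A1.2 rfl⟩
  invFun v := v.1.1
  map_add' x y := Subtype.ext (by simp)
  map_smul' c x := Subtype.ext (by simp)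
  left_inv w := rfl
  right_inv v := Subtype.ext (Prod.ext rfl (mem_A1.1 v.2).symm)

/-- `W* ≃ A2` -/
def i2 (F W : Type*) [Field F] [AddCommGroup W] [Module F W] : Dual F W ≃ₗ[F] A2 F W where
  toFun f := ⟨(0, f), mem_A2.2 rfl⟩
  invFun v := v.1.2
  map_add' x y := Subtype.ext (by simp)
  map_smul' c x := Subtype.ext (by simp)
  left_inv w := rfl
  right_inv v := Subtype.ext (Prod.ext (mem_A2.1 v.2).symm rfl)

end Plus

section Inv

variable {F V : Type*} [Field F] [AddCommGroup V] [Module F V]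

theorem map_eq_of_inv [FiniteDimensional F V] {x : V ≃ₗ[F] V} {Y : Submodule F V} (h : Inv x Y) :
    Y.map (x : V →ₗ[F] V) = Y := by
  apply Submodule.eq_of_le_of_finrank_eq
  · rintro _ ⟨v, hv, rfl⟩
    exact h v hv
  · exact LinearEquiv.finrank_map_eq x Y

theorem inv_symm [FiniteDimensional F V] {x : V ≃ₗ[F] V} {Y : Submodule F V} (h : Inv x Y) : Inv x.symm Y := by
  intro v hv
  rw [← map_eq_of_inv h] at hv
  obtain ⟨w, hw, rfl⟩ := hv
  show x.symm (x w) ∈ Y
  rwa [x.symm_apply_apply]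

theorem irr_of_sub {U : Type*} [AddCommGroup U] [Module F U] {A : Submodule F V} (i : U ≃ₗ[F] A) {y : U ≃ₗ[F] U}
    {x : V ≃ₗ[F] V} (hxy : ∀ u, x (i u : A) = (i (y u) : A)) (hy : Irr y ⊤) : Irr x A := by
  have hinv : Inv x A := by
    intro v hv
    obtain ⟨u, hu⟩ := i.surjective ⟨v, hv⟩
    have h1 := hxy u
    rw [hu] at h1
    rw [h1]
    exact (i (y u)).2
  refine ⟨hinv, ?_, ?_⟩
  · intro h0
    apply hy.ne_bot
    rw [eq_bot_iff]
    intro u _
    rw [Submodule.mem_bot]
    apply i.injective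
    rw [map_zero]
    have h1 : ((i u : A) : V) ∈ (⊥ : Submodule F V) := h0.le (i u).2
    exact Subtype.ext ((Submodule.mem_bot F).1 h1)
  · intro Y hY hYi
    let Y' : Submodule F U := Y.comap (A.subtype ∘ₗ (i : U →ₗ[F] A))
    have hY' : Inv y Y' := by
      intro u hu
      show ((i (y u) : A) : V) ∈ Y
      rw [← hxy]
      exact hYi _ hu
    rcases hy.min Y' le_top hY' with h1 | h1
    · left
      rw [eq_bot_iff]
      intro v hv
      obtain ⟨u, hu⟩ := i.surjective ⟨v, hY hv⟩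
      have h2 : u ∈ Y' := by
        show ((i u : A) : V) ∈ Y
        rw [hu]; exact hv
      rw [h1, Submodule.mem_bot] at h2
      rw [h2, map_zero] at hu
      exact (Submodule.mem_bot F).2 (congrArg Subtype.val hu).symm
    · right
      apply le_antisymm hY
      intro v hv
      obtain ⟨u, hu⟩ := i.surjective ⟨v, hv⟩
      have h2 : u ∈ Y' := by rw [h1]; exact Submodule.mem_top
      have h3 : ((i u : A) : V) ∈ Y := h2
      rwa [hu] at h3

theorem irr_dual [FiniteDimensional F V] {a : V ≃ₗ[F] V} (h : Irr a ⊤) : Irr a.symm.dualMap ⊤ := by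
  refine ⟨fun _ _ => Submodule.mem_top, ?_, ?_⟩
  · intro h0
    apply h.ne_bot
    rw [eq_bot_iff]
    intro v _
    rw [Submodule.mem_bot, ← Module.forall_dual_apply_eq_zero_iff F]
    intro f
    have hf : f ∈ (⊤ : Submodule F (Dual F V)) := Submodule.mem_top
    rw [h0, Submodule.mem_bot] at hf
    rw [hf]; rfl
  · intro Y _ hY
    have h1 : Inv a.symm Y.dualCoannihilator := by
      intro v hv
      rw [Submodule.mem_dualCoannihilator] at hv ⊢
      intro f hf
      exact hv _ (hY f hf)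
    have h2 : Inv a Y.dualCoannihilator := inv_symm h1
    rcases h.min _ le_top h2 with h3 | h3
    · right
      rw [← Subspace.dualCoannihilator_dualAnnihilator_eq (W := Y), h3, Submodule.dualAnnihilator_bot]
    · left
      rw [← Subspace.dualCoannihilator_dualAnnihilator_eq (W := Y), h3, Submodule.dualAnnihilator_top]

end Inv

section Plus

variable {F W : Type*} [Field F] [AddCommGroup W] [Module F W]

theorem irr_A1 {a : W ≃ₗ[F] W} (h : Irr a ⊤) : Irr (xa a) (A1 F W) :=
  irr_of_sub (i1 F W) (fun u => by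
    show xa a (u, 0) = (a u, 0)
    rw [xa_apply, map_zero]) h

theorem irr_A2 [FiniteDimensional F W] {a : W ≃ₗ[F] W} (h : Irr a ⊤) : Irr (xa a) (A2 F W) :=
  irr_of_sub (i2 F W) (fun u => by
    show xa a (0, u) = (0, a.symm.dualMap u)
    rw [xa_apply, map_zero]) (irr_dual h)

theorem not_iso [FiniteDimensional F W] {a : W ≃ₗ[F] W}
    (h : LinearMap.charpoly (a : W →ₗ[F] W) ≠ LinearMap.charpoly ((a⁻¹ : W ≃ₗ[F] W) : W →ₗ[F] W)) :
    ¬ ∃ φ : A1 F W ≃ₗ[F] A2 F W, ∀ v : A1 F W, ∀ hv : xa a v ∈ A1 F W,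
      ((φ ⟨xa a v, hv⟩ : A2 F W) : W × Dual F W) = xa a (φ v) := by
  rintro ⟨φ, hφ⟩
  apply h
  let ψ : W ≃ₗ[F] Dual F W := i1 F W ≪≫ₗ φ ≪≫ₗ (i2 F W).symm
  have hψ : ∀ w, ψ (a w) = a.symm.dualMap (ψ w) := by
    intro w
    have h1 : xa a ((i1 F W w : A1 F W) : W × Dual F W) ∈ A1 F W := by
      rw [mem_A1, xa_apply]
      exact map_zero _
    have h2 := hφ (i1 F W w) h1
    have h3 : (⟨xa a ((i1 F W w : A1 F W) : W × Dual F W), h1⟩ : A1 F W) = i1 F W (a w) := by
      apply Subtype.ext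
      show xa a (w, 0) = (a w, 0)
      rw [xa_apply, map_zero]
    rw [h3] at h2
    exact congrArg Prod.snd h2
  have h4 : ψ.conj (a : W →ₗ[F] W) = (a.symm : W →ₗ[F] W).dualMap := by
    ext f
    obtain ⟨w, rfl⟩ := ψ.surjective f
    rw [LinearEquiv.conj_apply_apply, LinearEquiv.symm_apply_apply]
    exact congrArg (fun g : Dual F W => g _) (hψ w)
  have h5 := congrArg LinearMap.charpoly h4
  rw [LinearEquiv.charpoly_conj, charpoly_dualMap] at h5
  exact h5

/-- an isometry stabilising both summands -/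
theorem eq_xa [FiniteDimensional F W] {h : (W × Dual F W) ≃ₗ[F] (W × Dual F W)} (hi : h ∈ (frmP F W).Iso)
    (h1 : (A1 F W).map (h : (W × Dual F W) →ₗ[F] (W × Dual F W)) = A1 F W)
    (h2 : (A2 F W).map (h : (W × Dual F W) →ₗ[F] (W × Dual F W)) = A2 F W) : ∃ a, h = xa a := by
  have m1 : ∀ w : W, (h (w, 0)).2 = 0 := fun w => mem_A1.1 (by rw [← h1]; exact ⟨_, mem_A1.2 rfl, rfl⟩)
  have m2 : ∀ f : Dual F W, (h (0, f)).1 = 0 := fun f => mem_A2.1 (by rw [← h2]; exact ⟨_, mem_A2.2 rfl, rfl⟩)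
  let α : W →ₗ[F] W := LinearMap.fst F W (Dual F W) ∘ₗ (h : (W × Dual F W) →ₗ[F] (W × Dual F W)) ∘ₗ LinearMap.inl F W (Dual F W)
  have hα : ∀ w, α w = (h (w, 0)).1 := fun _ => rfl
  have hinj : Function.Injective α := by
    rw [← LinearMap.ker_eq_bot, LinearMap.ker_eq_bot']
    intro w hw
    have h3 : h (w, 0) = 0 := Prod.ext (by rw [← hα, hw]; rfl) (m1 w)
    have h4 : ((w, 0) : W × Dual F W) = 0 := (h.map_eq_zero_iff).1 h3
    exact congrArg Prod.fst h4
  let a : W ≃ₗ[F] W := LinearEquiv.ofInjectiveEndo α hinj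
  have ha : ∀ w, a w = (h (w, 0)).1 := fun _ => rfl
  refine ⟨a, ?_⟩
  have hf : ∀ f, (h (0, f)).2 = a.symm.dualMap f := by
    intro f
    ext w
    obtain ⟨w, rfl⟩ := a.surjective w
    rw [LinearEquiv.dualMap_apply, LinearEquiv.symm_apply_apply]
    have h5 := hi.1 (w, 0) (0, f)
    rw [frmP_B, frmP_B, m1, ← ha] at h5
    simpa using h5
  apply LinearEquiv.ext
  intro v
  have h6 : v = (v.1, 0) + (0, v.2) := by simp
  have h7 : h v = h (v.1, 0) + h (0, v.2) := by
    rw [← map_add]; congr 1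
  rw [h7, xa_apply]
  apply Prod.ext
  · rw [Prod.fst_add, m2, add_zero, ← ha]
  · rw [Prod.snd_add, m1, zero_add, hf]

/-- **blocks of type plus on `W × W*`** -/
theorem plus_W [Finite F] [FiniteDimensional F W] {j : ℕ}
    (H : ar j / j * Nat.card (W ≃ₗ[F] W) ≤ (Nat.card {x : W ≃ₗ[F] W // Irr x ⊤ ∧
      LinearMap.charpoly (x : W →ₗ[F] W) ≠ LinearMap.charpoly ((x⁻¹ : W ≃ₗ[F] W) : W →ₗ[F] W)} : ℝ)) :
    ar j / (2 * j) * Nat.card (frmP F W).Iso ≤ (Nat.card (frmP F W).Bp : ℝ) := by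
  classical
  have hWf : Finite W := Module.finite_of_finite F
  have hDf : Finite (Dual F W) := Module.finite_of_finite F
  have hfe : Finite ((W × Dual F W) ≃ₗ[F] (W × Dual F W)) := Finite.of_injective _ DFunLike.coe_injective
  have hfw : Finite (W ≃ₗ[F] W) := Finite.of_injective _ DFunLike.coe_injective
  set G := (frmP F W).Iso with hG
  let S : Set (W ≃ₗ[F] W) := {x | Irr x ⊤ ∧
      LinearMap.charpoly (x : W →ₗ[F] W) ≠ LinearMap.charpoly ((x⁻¹ : W ≃ₗ[F] W) : W →ₗ[F] W)}
  let E : Set ((W × Dual F W) ≃ₗ[F] (W × Dual F W)) := xa '' S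
  have hES : Nat.card E = Nat.card S := Nat.card_image_of_injective xa_injective S
  have hBp : ∀ a ∈ S, xa a ∈ (frmP F W).Bp := fun a ha =>
    ⟨xa_mem a, A1 F W, A2 F W, compl_A, TI_A1, TI_A2, irr_A1 ha.1, irr_A2 ha.1, by
      rw [← (i1 F W).finrank_eq, ← (i2 F W).finrank_eq, Subspace.dual_finrank_eq], not_iso ha.2⟩
  have key := card_pairs G E (frmP F W).Bp (2 * Nat.card (W ≃ₗ[F] W)) ?_ ?_
  · rw [hES] at key
    have keyr : (Nat.card G : ℝ) * Nat.card S ≤ Nat.card (frmP F W).Bp * (2 * Nat.card (W ≃ₗ[F] W)) := by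
      exact_mod_cast key
    have hW : (0 : ℝ) < Nat.card (W ≃ₗ[F] W) := by exact_mod_cast Nat.card_pos
    have h1 : (Nat.card G : ℝ) * (ar j / j * Nat.card (W ≃ₗ[F] W)) ≤
        Nat.card (frmP F W).Bp * (2 * Nat.card (W ≃ₗ[F] W)) :=
      (mul_le_mul_of_nonneg_left H (Nat.cast_nonneg _)).trans keyr
    have h2 : (ar j / (2 * j) * Nat.card G) * Nat.card (W ≃ₗ[F] W) ≤ Nat.card (frmP F W).Bp * Nat.card (W ≃ₗ[F] W) := by
      have h3 : ar j / (2 * j) = ar j / j / 2 := by rw [mul_comm, div_div]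
      rw [h3]
      linarith
    exact le_of_mul_le_mul_right h2 hW
  · rintro _ ⟨a, ha, rfl⟩
    let m : ((W × Dual F W) ≃ₗ[F] (W × Dual F W)) → Submodule F (W × Dual F W) → Submodule F (W × Dual F W) :=
      fun h Y => Y.map (h : (W × Dual F W) →ₗ[F] (W × Dual F W))
    have hm : ∀ h h' Y, m (h * h') Y = m h (m h' Y) := by
      intro h h' Y
      exact Submodule.map_comp _ _ _
    let S0 : Set ((W × Dual F W) ≃ₗ[F] (W × Dual F W)) := {h | h ∈ G ∧ m h (A1 F W) = A1 F W ∧ m h (A2 F W) = A2 F W}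
    let S1 : Set ((W × Dual F W) ≃ₗ[F] (W × Dual F W)) := {h | h ∈ G ∧ m h (A1 F W) = A2 F W ∧ m h (A2 F W) = A1 F W}
    have c0 : Nat.card S0 ≤ Nat.card (W ≃ₗ[F] W) := by
      have h1 : S0 ⊆ Set.range xa := by
        rintro h ⟨hh, h1, h2⟩
        obtain ⟨b, rfl⟩ := eq_xa hh h1 h2
        exact ⟨b, rfl⟩
      calc Nat.card S0 ≤ Nat.card (Set.range (xa (F := F) (W := W))) := Nat.card_mono (Set.toFinite _) h1
        _ ≤ Nat.card (W ≃ₗ[F] W) := Finite.card_range_le _
    have c1 : Nat.card S1 ≤ Nat.card S0 := by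
      by_cases hne : Nonempty S1
      · obtain ⟨h1, hh1, e1, e2⟩ := hne
        refine Nat.card_le_card_of_injective (fun h => (⟨h1⁻¹ * h.1, G.mul_mem (G.inv_mem hh1) h.2.1, ?_, ?_⟩ : S0)) ?_
        · have h3 : m h1⁻¹ (m h1 (A1 F W)) = A1 F W := by
            rw [← hm, inv_mul_cancel]
            exact Submodule.map_id _
          rw [hm, h.2.2.1, ← e1]
          exact h3
        · have h3 : m h1⁻¹ (m h1 (A2 F W)) = A2 F W := by
            rw [← hm, inv_mul_cancel]
            exact Submodule.map_id _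
          rw [hm, h.2.2.2, ← e2]
          exact h3
        · intro h h' hh
          exact Subtype.ext (mul_left_cancel (congrArg Subtype.val hh))
      · rw [not_nonempty_iff] at hne
        rw [Nat.card_of_isEmpty]
        exact Nat.zero_le _
    have hsub : {h | h ∈ G ∧ h * xa a * h⁻¹ ∈ E} ⊆ S0 ∪ S1 := by
      rintro h ⟨hh, b, hb, hab⟩
      have g1 : ∀ {X : Submodule F (W × Dual F W)}, Irr (xa a) X → Irr (xa b) (m h X) := by
        intro X hX
        have h1 := Irr_cj (e := h) hX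
        rw [hab]
        exact h1
      have f1 := irr_eq compl_A (irr_A1 hb.1) (irr_A2 hb.1) (g1 (irr_A1 ha.1)) (not_iso hb.2)
      have f2 := irr_eq compl_A (irr_A1 hb.1) (irr_A2 hb.1) (g1 (irr_A2 ha.1)) (not_iso hb.2)
      have hne : m h (A1 F W) ≠ m h (A2 F W) := by
        intro h3
        have h4 : A1 F W = A2 F W := Submodule.map_injective_of_injective h.injective h3
        have h5 := (compl_A (F := F) (W := W)).inf_eq_bot
        rw [← h4, inf_idem] at h5
        exact (irr_A1 ha.1).ne_bot h5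
      rcases f1 with f1 | f1
      · rcases f2 with f2 | f2
        · exact absurd (f1.trans f2.symm) hne
        · exact Or.inl ⟨hh, f1, f2⟩
      · rcases f2 with f2 | f2
        · exact Or.inr ⟨hh, f1, f2⟩
        · exact absurd (f1.trans f2.symm) hne
    calc Nat.card {h // h ∈ G ∧ h * xa a * h⁻¹ ∈ E} ≤ Nat.card (S0 ∪ S1 : Set _) :=
          Nat.card_mono (Set.toFinite _) hsub
      _ ≤ Nat.card S0 + Nat.card S1 := Set.ncard_union_le _ _
      _ ≤ _ := by omega
  · rintro g hg _ ⟨a, ha, rfl⟩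
    exact Bp_cj (e := g) hg.1 hg.2 (hBp a ha)

end Plus

/-- **blocks of type plus, symplectic case** (from the count of irreducible elements of `GL`) -/
theorem sp_plus_of {F V : Type*} [Field F] [Finite F] [AddCommGroup V] [Module F V] [FiniteDimensional F V] {Φ : Frm F V}
    (hΦ : IsSp Φ) {j : ℕ} (hj : 1 ≤ j) (hd : finrank F V = 2 * j)
    (H : ar j / j * Nat.card ((Fin j → F) ≃ₗ[F] (Fin j → F)) ≤ (Nat.card {x : (Fin j → F) ≃ₗ[F] (Fin j → F) // Irr x ⊤ ∧
      LinearMap.charpoly (x : (Fin j → F) →ₗ[F] (Fin j → F)) ≠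
        LinearMap.charpoly ((x⁻¹ : (Fin j → F) ≃ₗ[F] (Fin j → F)) : (Fin j → F) →ₗ[F] (Fin j → F))} : ℝ)) :
    ar j / (2 * j) * Nat.card Φ.Iso ≤ (Nat.card Φ.Bp : ℝ) := by
  have hV : Finite V := Module.finite_of_finite F
  have hd' : finrank F V = finrank F ((Fin j → F) × Dual F (Fin j → F)) := by
    rw [Module.finrank_prod, Subspace.dual_finrank_eq, Module.finrank_fin_fun, hd]
    ring
  obtain ⟨e, he, hq⟩ := exists_equiv hΦ (isSp_frmP (F := F) (W := Fin j → F)) hd'
  obtain ⟨he', hq'⟩ := symm_isom he hq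
  have hDf : Finite (Dual F (Fin j → F)) := Module.finite_of_finite F
  have h1 := plus_W (F := F) (W := Fin j → F) (j := j) H
  have h2 : Nat.card Φ.Iso ≤ Nat.card (frmP F (Fin j → F)).Iso := card_Iso_le he hq
  have h3 : Nat.card (frmP F (Fin j → F)).Bp ≤ Nat.card Φ.Bp := by
    have hfe : Finite (V ≃ₗ[F] V) := Finite.of_injective _ DFunLike.coe_injective
    exact Nat.card_le_card_of_injective (fun x => (⟨cj e.symm x.1, Bp_cj he' hq' x.2⟩ : Φ.Bp))
      fun _ _ h => Subtype.ext (cj_injective e.symm (congrArg Subtype.val h))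
  by_cases har : ar j ≤ 0
  · refine le_trans ?_ (Nat.cast_nonneg _)
    exact mul_nonpos_of_nonpos_of_nonneg (div_nonpos_of_nonpos_of_nonneg har (by positivity)) (Nat.cast_nonneg _)
  · push Not at har
    calc ar j / (2 * j) * (Nat.card Φ.Iso : ℝ) ≤ ar j / (2 * j) * Nat.card (frmP F (Fin j → F)).Iso :=
          mul_le_mul_of_nonneg_left (by exact_mod_cast h2) (by positivity)
      _ ≤ _ := h1
      _ ≤ _ := by exact_mod_cast h3

end Cfsg.Agent.H59.Bs
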